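import Cfsg.Agent.H601.IF.Tri
import Cfsg.Agent.H209.IF.Kill
import Cfsg.Agent.H325.IF.Inv3

/-!
# S5719, `PΩ₈⁺(q)`, `q` odd: the class (II), `g² = -1` (helper601)

`ii_false` : CLAIM 0 (no `t₂`, `t₆` in `A`, for all `A`) excludes the elements with `g² = -1`.
-/

set_option autoImplicit false

namespace Cfsg.Agent.H601.OTri

open QuadraticMap Module Cfsg.Agent.LieClassical.QuadForms Cfsg.Agent.LieClassical.OrthCore
  Cfsg.Agent.LieClassical.OrthTrans Cfsg.Agent.LieClassical.OrthSimple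
  Cfsg.Agent.ClassicalGeometry.Triality Cfsg.Agent.H989.OutOrth.Tri
  Cfsg.Agent.H209.Fxy
open Cfsg.Agent.H989.Gs.Gen (ap)
open Cfsg.Agent.ClassicalGeometry.OrthAut1 (P)

variable {F : Type*} [Field F]

/-- a property of all configurations in `PΩ₈⁺` excluding `t₂`, `t₆` excludes `g² = -1` -/
theorem ii_false (h2 : (2 : F) ≠ 0) (hG : Good (plusForm 4 F))
    (claim0 : ∀ (A : Subgroup (P (plusForm 4 F))) (Γ : Subgroup (MulAut (P (plusForm 4 F)))), IF A Γ →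
      ∀ h : ↥(E (plusForm 4 F)), h * h = 1 → (finrank F (H325.IF.Vm h) = 2 ∨ finrank F (H325.IF.Vm h) = 6) →
        (h : P (plusForm 4 F)) ∈ A → False)
    {A : Subgroup (P (plusForm 4 F))} {Γ : Subgroup (MulAut (P (plusForm 4 F)))} (hI : IF A Γ)
    {g : ↥(E (plusForm 4 F))} (hg : ∀ v, ap g (ap g v) = -v) (hgA : (g : P (plusForm 4 F)) ∈ A) : False := by
  obtain ⟨ρ, hρ⟩ := exists_rho hG
  obtain ⟨h, h3, h4, h5⟩ := exists_tri h2 hG hρ g hg
  rcases h3 with h3 | h3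
  · refine claim0 _ _ (hI.map ρ) h h4 h5 ?_
    rw [← h3]
    exact ⟨_, hgA, rfl⟩
  · refine claim0 _ _ ((hI.map ρ).map ρ) h h4 h5 ?_
    rw [← h3]
    exact ⟨_, ⟨_, hgA, rfl⟩, rfl⟩

end Cfsg.Agent.H601.OTri
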