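import Mathlib
import Cfsg.Agent.H989.OutOrth.Tri

/-!
# S5719, `PΩ₈⁺(q)`, `q` odd: the involutions with `g² = -1` are images of `t₂`, `t₆` under triality (helper601)

`exists_tri` : `g ∈ E Q`, `g² = -1` ⟹ `ρ [g]` or `ρ² [g]` is `[h]`, `h² = 1`, `dim V₋(h) = 2` or `6`.
-/

set_option autoImplicit false

namespace Cfsg.Agent.H601.OTri

open QuadraticMap Module Cfsg.Agent.LieClassical.QuadForms Cfsg.Agent.LieClassical.OrthCore
  Cfsg.Agent.LieClassical.OrthTrans Cfsg.Agent.LieClassical.OrthSimple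
  Cfsg.Agent.ClassicalGeometry.TrialityOct Cfsg.Agent.ClassicalGeometry.OrthAut1
  Cfsg.Agent.ClassicalGeometry.Triality Cfsg.Agent.H989.OutOrth.Tri

variable {F : Type*} [Field F]

/-! ### Octonions -/

theorem pol1 (a b x : V8 F) : omul a (omul (oconj b) x) + omul b (omul (oconj a) x) = polar (plusForm 4 F) a b • x := by
  coord8

theorem pol2 (a b x : V8 F) : omul (oconj a) (omul b x) + omul (oconj b) (omul a x) = polar (plusForm 4 F) a b • x := by
  coord8

theorem anti1 {a b : V8 F} (h : polar (plusForm 4 F) a b = 0) (x : V8 F) :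
    omul a (omul (oconj b) x) = -omul b (omul (oconj a) x) := by
  rw [eq_neg_iff_add_eq_zero, pol1, h, zero_smul]

theorem anti2 {a b : V8 F} (h : polar (plusForm 4 F) a b = 0) (x : V8 F) :
    omul (oconj a) (omul b x) = -omul (oconj b) (omul a x) := by
  rw [eq_neg_iff_add_eq_zero, pol2, h, zero_smul]

theorem omul_neg' (a x : V8 F) : omul a (-x) = -omul a x := by
  coord8

/-- the square of `L_a L_b̄ L_c L_d̄` -/
theorem four_sq {a b c d : V8 F} (hab : polar (plusForm 4 F) a b = 0) (hac : polar (plusForm 4 F) a c = 0)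
    (had : polar (plusForm 4 F) a d = 0) (hbc : polar (plusForm 4 F) b c = 0) (hbd : polar (plusForm 4 F) b d = 0)
    (hcd : polar (plusForm 4 F) c d = 0) (x : V8 F) :
    omul a (omul (oconj b) (omul c (omul (oconj d) (omul a (omul (oconj b) (omul c (omul (oconj d) x))))))) =
      (plusForm 4 F a * plusForm 4 F b * plusForm 4 F c * plusForm 4 F d) • x := by
  have hda : polar (plusForm 4 F) d a = 0 := by rw [polar_comm]; exact had
  have hca : polar (plusForm 4 F) c a = 0 := by rw [polar_comm]; exact hac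
  have hba : polar (plusForm 4 F) b a = 0 := by rw [polar_comm]; exact hab
  have hdb : polar (plusForm 4 F) d b = 0 := by rw [polar_comm]; exact hbd
  have hcb : polar (plusForm 4 F) c b = 0 := by rw [polar_comm]; exact hbc
  have hdc : polar (plusForm 4 F) d c = 0 := by rw [polar_comm]; exact hcd
  rw [anti2 hda, omul_neg', omul_neg', omul_neg', anti1 hca, omul_neg', omul_neg', neg_neg, anti2 hba, omul_neg',
    omul_oconj_omul, anti1 hdb, omul_neg', omul_neg', smul_neg, neg_neg, anti2 hcb, omul_neg', omul_oconj_omul,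
    anti2 hdc, omul_neg', omul_oconj_omul, omul_oconj_omul]
  simp only [smul_neg, neg_neg, smul_smul, mul_assoc]

/-- left multiplication -/
def ML (a : V8 F) (ha : plusForm 4 F a ≠ 0) : V8 F ≃ₗ[F] V8 F :=
  LinearEquiv.ofLinearMap
    { toFun := omul a, map_add' := omul_add a, map_smul' := fun c x => omul_smul c a x }
    { toFun := fun x => (plusForm 4 F a)⁻¹ • omul (oconj a) x
      map_add' := fun x y => by rw [omul_add, smul_add]
      map_smul' := fun c x => by rw [omul_smul, smul_comm]; rfl }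
    (LinearMap.ext fun x => by
      change omul a ((plusForm 4 F a)⁻¹ • omul (oconj a) x) = x
      rw [omul_smul, omul_oconj_omul, smul_smul, inv_mul_cancel₀ ha, one_smul])
    (LinearMap.ext fun x => by
      change (plusForm 4 F a)⁻¹ • omul (oconj a) (omul a x) = x
      rw [oconj_omul_omul, smul_smul, inv_mul_cancel₀ ha, one_smul])

/-- right multiplication -/
def MR (a : V8 F) (ha : plusForm 4 F a ≠ 0) : V8 F ≃ₗ[F] V8 F :=
  LinearEquiv.ofLinearMap
    { toFun := fun x => omul x a, map_add' := fun x y => add_omul x y a, map_smul' := fun c x => smul_omul c x a }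
    { toFun := fun x => (plusForm 4 F a)⁻¹ • omul x (oconj a)
      map_add' := fun x y => by rw [add_omul, smul_add]
      map_smul' := fun c x => by rw [smul_omul, smul_comm]; rfl }
    (LinearMap.ext fun x => by
      change omul ((plusForm 4 F a)⁻¹ • omul x (oconj a)) a = x
      rw [smul_omul, omul_oconj_omul', smul_smul, inv_mul_cancel₀ ha, one_smul])
    (LinearMap.ext fun x => by
      change (plusForm 4 F a)⁻¹ • omul (omul x a) (oconj a) = x
      rw [omul_omul_oconj, smul_smul, inv_mul_cancel₀ ha, one_smul])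

theorem ML_apply {a : V8 F} (ha : plusForm 4 F a ≠ 0) (x : V8 F) : ML a ha x = omul a x := rfl

theorem MR_apply {a : V8 F} (ha : plusForm 4 F a ≠ 0) (x : V8 F) : MR a ha x = omul x a := rfl

theorem norm_oconj_ne {a : V8 F} (ha : plusForm 4 F a ≠ 0) : plusForm 4 F (oconj a) ≠ 0 := by rwa [norm_oconj]

/-- `r_a r_b (x y)` -/
theorem refl_refl {a b : V8 F} (ha : plusForm 4 F a ≠ 0) (hb : plusForm 4 F b ≠ 0) (x y : V8 F) :
    refl (plusForm 4 F) a ha (refl (plusForm 4 F) b hb (omul x y)) =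
      ((plusForm 4 F a)⁻¹ * (plusForm 4 F b)⁻¹) • omul (omul a (omul (oconj b) x)) (omul (omul y (oconj b)) a) := by
  rw [refl_eq hb, refl_eq ha]
  have h : oconj ((-(plusForm 4 F b)⁻¹) • omul (omul b (oconj (omul x y))) b)
      = (-(plusForm 4 F b)⁻¹) • oconj (omul (omul b (oconj (omul x y))) b) := by
    coord8
  rw [h, ← flex_conj, omul_smul, smul_omul, smul_smul, neg_mul_neg, moufang (oconj b) x y, moufang]

/-- **an involution with a 4-dimensional `(-1)`-space comes from a triple of involutions** -/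
theorem sq_of_four {h g₁ g₂ : V8 F ≃ₗ[F] V8 F} (ht : Tri h g₁ g₂) (hg₁ : g₁ ∈ O (plusForm 4 F)) {a b c d : V8 F}
    (ha : plusForm 4 F a ≠ 0) (hb : plusForm 4 F b ≠ 0) (hc : plusForm 4 F c ≠ 0) (hd : plusForm 4 F d ≠ 0)
    (hab : polar (plusForm 4 F) a b = 0) (hac : polar (plusForm 4 F) a c = 0)
    (had : polar (plusForm 4 F) a d = 0) (hbc : polar (plusForm 4 F) b c = 0) (hbd : polar (plusForm 4 F) b d = 0)
    (hcd : polar (plusForm 4 F) c d = 0)
    (hh : ∀ x, h x = refl (plusForm 4 F) a ha (refl (plusForm 4 F) b hb (refl (plusForm 4 F) c hc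
      (refl (plusForm 4 F) d hd x)))) (x : V8 F) : g₁ (g₁ x) = x := by
  set D := plusForm 4 F a * plusForm 4 F b * plusForm 4 F c * plusForm 4 F d with hD
  have hD0 : D ≠ 0 := mul_ne_zero (mul_ne_zero (mul_ne_zero ha hb) hc) hd
  let G₁ : V8 F ≃ₗ[F] V8 F := ML a ha * (ML (oconj b) (norm_oconj_ne hb) * (ML c hc * ML (oconj d) (norm_oconj_ne hd)))
  let G₂ : V8 F ≃ₗ[F] V8 F := LinearEquiv.smulOfNeZero F (V8 F) D⁻¹ (inv_ne_zero hD0) *
    (MR a ha * (MR (oconj b) (norm_oconj_ne hb) * (MR c hc * MR (oconj d) (norm_oconj_ne hd))))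
  have hG₁ : ∀ x, G₁ x = omul a (omul (oconj b) (omul c (omul (oconj d) x))) := fun x => rfl
  have hG₂ : ∀ x, G₂ x = D⁻¹ • omul (omul (omul (omul x (oconj d)) c) (oconj b)) a := fun x => rfl
  have hT : Tri h G₁ G₂ := by
    intro x y
    rw [hh, refl_refl hc hd, map_smul, map_smul, refl_refl ha hb, hG₁, hG₂, omul_smul, smul_smul, hD]
    congr 1
    rw [mul_inv, mul_inv, mul_inv]
    ring
  obtain ⟨e, he0, he, -⟩ := ht.unique hT
  have h1 : ∀ x, G₁ (G₁ x) = D • x := fun x => by
    rw [hG₁ (G₁ x), hG₁ x]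
    exact four_sq hab hac had hbc hbd hcd x
  have h2 : D = e * e := by
    have h3 : plusForm 4 F (G₁ (one8 F)) = D := by
      rw [hG₁, norm_omul, norm_omul, norm_omul, norm_omul, norm_oconj, norm_oconj, norm_one8, hD]
      ring
    rw [he, QuadraticMap.map_smul, hg₁, norm_one8, smul_eq_mul, mul_one] at h3
    exact h3.symm
  have h4 := h1 x
  rw [he (G₁ x), he x, map_smul, smul_smul, h2] at h4
  exact smul_right_injective _ (mul_ne_zero he0 he0) h4

/-! ### Involutions -/

section inv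

variable {V : Type*} [AddCommGroup V] [Module F V] {Q : QuadraticForm F V}

/-- the `(-1)`-space -/
def Vm (h : V ≃ₗ[F] V) : Submodule F V := LinearMap.ker ((h : V →ₗ[F] V) + LinearMap.id)

theorem mem_Vm {h : V ≃ₗ[F] V} {v : V} : v ∈ Vm h ↔ h v = -v := by
  rw [Vm, LinearMap.mem_ker, LinearMap.add_apply, LinearMap.id_apply, ← eq_neg_iff_add_eq_zero]
  rfl

theorem det_inv [FiniteDimensional F V] {h : V ≃ₗ[F] V} (hh : ∀ v, h (h v) = v) :
    LinearMap.det (h : V →ₗ[F] V) = (-1) ^ Module.finrank F (Vm h) := by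
  have hc : Vm h ≤ (Vm h).comap (h : V →ₗ[F] V) := by
    intro v hv
    rw [mem_Vm] at hv
    change h v ∈ Vm h
    rw [mem_Vm, hv, map_neg, hv]
  rw [LinearMap.det_eq_det_mul_det (Vm h) (h : V →ₗ[F] V) hc]
  have h1 : (h : V →ₗ[F] V).restrict (p := Vm h) (q := Vm h) (fun x hx => hc hx) = (-1 : F) • (LinearMap.id : ↥(Vm h) →ₗ[F] ↥(Vm h)) := by
    ext v
    change h v = (-1 : F) • (v : V)
    rw [mem_Vm.1 v.2, neg_one_smul]
  have h2 : (Vm h).mapQ (Vm h) (h : V →ₗ[F] V) hc = LinearMap.id := by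
    ext v
    change Submodule.Quotient.mk (h v) = (Submodule.Quotient.mk v : V ⧸ Vm h)
    rw [Submodule.Quotient.eq, mem_Vm, map_sub, hh]
    abel
  rw [h1, h2, LinearMap.det_smul, LinearMap.det_id, LinearMap.det_id, mul_one, mul_one]

/-- orthogonal basis of the `(-1)`-space -/
theorem exists_orth [FiniteDimensional F V] (h2 : (2 : F) ≠ 0) (hn : Nondeg Q) {h : V ≃ₗ[F] V} (hO : h ∈ O Q)
    (hh : ∀ v, h (h v) = v) : ∃ u : Fin (Module.finrank F (Vm h)) → V, (∀ i, Q (u i) ≠ 0) ∧
      (∀ i j, i ≠ j → polar Q (u i) (u j) = 0) ∧ ∀ x, h x = x - ∑ i, (polar Q (u i) x * (Q (u i))⁻¹) • u i := by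
  have hinv : Invertible (2 : F) := invertibleOfNonzero h2
  let B : LinearMap.BilinForm F (Vm h) := LinearMap.BilinForm.restrict (polarBilin Q) (Vm h)
  have hBs : LinearMap.IsSymm B := ⟨fun x y => by
    change polar Q (x : V) (y : V) = polar Q (y : V) (x : V)
    rw [polar_comm]⟩
  obtain ⟨b, hb⟩ := LinearMap.BilinForm.exists_orthogonal_basis (B := B) hBs
  have hpol : ∀ i j, i ≠ j → polar Q (b i : V) (b j : V) = 0 := fun i j hij => hb hij
  have hmin : ∀ v ∈ Vm h, ∀ x, h x = x → polar Q v x = 0 := by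
    intro v hv x hx
    rw [mem_Vm] at hv
    have h3 := polar_map hO v x
    rw [hv, hx, polar_neg_left] at h3
    have h4 : (2 : F) * polar Q v x = 0 := by linear_combination -h3
    exact (mul_eq_zero.1 h4).resolve_left h2
  have hdec : ∀ x : V, ∃ y ∈ Vm h, ∃ z, h z = z ∧ x = y + z := by
    intro x
    refine ⟨(2 : F)⁻¹ • (x - h x), ?_, (2 : F)⁻¹ • (x + h x), ?_, ?_⟩
    · rw [mem_Vm, map_smul, map_sub, hh, ← smul_neg, neg_sub]
    · rw [map_smul, map_add, hh, add_comm]
    · rw [← smul_add, show x - h x + (x + h x) = (2 : F) • x by module, smul_smul, inv_mul_cancel₀ h2, one_smul]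
  have hself : ∀ v, polar Q v v = 2 * Q v := fun v => by rw [polar_self', two_mul]
  have hQ : ∀ i, Q (b i : V) ≠ 0 := by
    intro i h0
    have h3 : (b i : V) = 0 := by
      apply hn
      intro x
      obtain ⟨y, hy, z, hz, rfl⟩ := hdec x
      rw [polar_add_right, hmin _ (b i).2 z hz, add_zero]
      have h4 : (⟨y, hy⟩ : Vm h) = ∑ j, b.repr ⟨y, hy⟩ j • b j := (b.sum_repr _).symm
      have h5 : y = ∑ j, b.repr ⟨y, hy⟩ j • (b j : V) := by
        have h6 := congrArg (fun t : Vm h => (t : V)) h4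
        simp only [Submodule.coe_sum, Submodule.coe_smul] at h6
        exact h6
      rw [h5]
      change polarBilin Q (b i : V) _ = 0
      rw [map_sum]
      refine Finset.sum_eq_zero fun j _ => ?_
      rw [map_smul]
      change _ • polar Q (b i : V) (b j : V) = 0
      by_cases hij : i = j
      · subst hij
        rw [hself, h0, mul_zero, smul_zero]
      · rw [hpol i j hij, smul_zero]
    exact b.ne_zero i (Subtype.ext h3)
  refine ⟨fun i => (b i : V), hQ, hpol, fun x => ?_⟩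
  obtain ⟨y, hy, z, hz, rfl⟩ := hdec x
  have h5 : y = ∑ j, b.repr ⟨y, hy⟩ j • (b j : V) := by
    have h4 : (⟨y, hy⟩ : Vm h) = ∑ j, b.repr ⟨y, hy⟩ j • b j := (b.sum_repr _).symm
    have h6 := congrArg (fun t : Vm h => (t : V)) h4
    simp only [Submodule.coe_sum, Submodule.coe_smul] at h6
    exact h6
  have h7 : ∀ i, polar Q (b i : V) (y + z) * (Q (b i : V))⁻¹ = 2 * b.repr ⟨y, hy⟩ i := by
    intro i
    rw [polar_add_right, hmin _ (b i).2 z hz, add_zero]
    have h8 : polar Q (b i : V) y = 2 * Q (b i : V) * b.repr ⟨y, hy⟩ i := by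
      conv_lhs => rw [h5]
      change polarBilin Q (b i : V) _ = _
      rw [map_sum, Finset.sum_eq_single i]
      · rw [map_smul]
        change _ • polar Q (b i : V) (b i : V) = _
        rw [hself, smul_eq_mul, mul_comm]
      · intro j _ hj
        rw [map_smul]
        change _ • polar Q (b i : V) (b j : V) = 0
        rw [hpol i j (Ne.symm hj), smul_zero]
      · exact fun h => absurd (Finset.mem_univ i) h
    rw [h8]
    field_simp [hQ i]
  rw [map_add, mem_Vm.1 hy, hz, Finset.sum_congr rfl fun i _ => by rw [h7 i]]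
  have h9 : ∑ i, (2 * b.repr ⟨y, hy⟩ i) • (b i : V) = (2 : F) • y := by
    conv_rhs => rw [h5]
    rw [Finset.smul_sum]
    exact Finset.sum_congr rfl fun i _ => mul_smul _ _ _
  rw [h9]
  module

end inv

/-! ### Triality on the involutions -/

/-- triples over scalars -/
theorem sq_of_scalar {h s t : V8 F ≃ₗ[F] V8 F} (ht : Tri h s t) (hs : s ∈ O (plusForm 4 F)) {e : F} (he : e ≠ 0)
    (hh : ∀ x, h x = e • x) (x : V8 F) : s (s x) = x := by
  have h1 : Tri h (LinearEquiv.smulOfNeZero F (V8 F) e he) 1 := by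
    intro x y
    rw [hh]
    exact (smul_omul e x y).symm
  obtain ⟨c, hc0, hc, -⟩ := h1.unique ht
  have hc' : ∀ x, s x = (c * e) • x := fun x => by
    rw [hc, mul_smul]
    rfl
  have h2 : (c * e) * (c * e) = 1 := by
    have h3 := hs (one8 F)
    rw [hc', QuadraticMap.map_smul, norm_one8, smul_eq_mul, mul_one] at h3
    exact h3
  rw [hc' (s x), hc' x, smul_smul, h2, one_smul]

theorem det_of_mem_E {V : Type*} [AddCommGroup V] [Module F V] {Q : QuadraticForm F V} (hG : Good Q)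
    {g : V ≃ₗ[F] V} (hg : g ∈ E Q) : LinearMap.det (g : V →ₗ[F] V) = 1 := by
  rw [← hG.commutator_eq_E] at hg
  have h1 : ⁅O Q, O Q⁆ ≤ (LinearEquiv.det (R := F) (M := V)).ker := by
    rw [Subgroup.commutator_le]
    intro a _ b _
    rw [MonoidHom.mem_ker, map_commutatorElement, commutatorElement_eq_one_iff_mul_comm, mul_comm]
  have h2 : LinearEquiv.det g = 1 := h1 hg
  have h3 := congrArg Units.val h2
  rwa [LinearEquiv.coe_det] at h3

theorem finrank_V8 : Module.finrank F (V8 F) = 8 := by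
  rw [Module.finrank_fintype_fun_eq_card]
  rfl

/-- an involution of `E` with `s² = -1` in its triple: `dim V₋ = 2` or `6` -/
theorem two_or_six (h2 : (2 : F) ≠ 0) (hG : Good (plusForm 4 F)) {h s t : V8 F ≃ₗ[F] V8 F} (hE : h ∈ E (plusForm 4 F))
    (ht : Tri h s t) (hs : s ∈ O (plusForm 4 F)) (hh : ∀ v, h (h v) = v) (hs1 : ∀ v, s (s v) = -v) :
    Module.finrank F (Vm h) = 2 ∨ Module.finrank F (Vm h) = 6 := by
  have hO : h ∈ O (plusForm 4 F) := E_le_O hE
  have hbad : ¬ ∀ x, s (s x) = x := by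
    intro hall
    have h3 := hall (one8 F)
    rw [hs1] at h3
    have h4 : (2 : F) • one8 F = 0 := by
      rw [two_smul]
      nth_rewrite 1 [← h3]
      exact neg_add_cancel _
    have h5 := (smul_eq_zero.1 h4).resolve_left h2
    have h6 := norm_one8 (F := F)
    rw [h5, QuadraticMap.map_zero] at h6
    exact zero_ne_one h6
  have key : ∀ k, Module.finrank F (Vm h) = k → ∃ u : Fin k → V8 F, (∀ i, plusForm 4 F (u i) ≠ 0) ∧
      (∀ i j, i ≠ j → polar (plusForm 4 F) (u i) (u j) = 0) ∧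
      ∀ x, h x = x - ∑ i, (polar (plusForm 4 F) (u i) x * (plusForm 4 F (u i))⁻¹) • u i := by
    rintro _ rfl
    exact exists_orth h2 hG.nondeg hO hh
  have hle : Module.finrank F (Vm h) ≤ 8 := by
    rw [← finrank_V8 (F := F)]
    exact Submodule.finrank_le _
  have hd := det_inv hh
  rw [det_of_mem_E hG hE] at hd
  have hev : Even (Module.finrank F (Vm h)) := by
    rcases Nat.even_or_odd (Module.finrank F (Vm h)) with h3 | h3
    · exact h3
    · rw [h3.neg_one_pow] at hd
      exfalso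
      apply h2
      have : (2 : F) = 1 + 1 := by norm_num
      rw [this]
      nth_rewrite 1 [hd]
      exact neg_add_cancel 1
  have h0 : Module.finrank F (Vm h) ≠ 0 := by
    intro hk
    obtain ⟨u, -, -, hu⟩ := key 0 hk
    refine hbad (sq_of_scalar ht hs one_ne_zero fun x => ?_)
    rw [hu, Finset.univ_eq_empty, Finset.sum_empty, sub_zero, one_smul]
  have h8 : Module.finrank F (Vm h) ≠ 8 := by
    intro hk
    have h3 : Vm h = ⊤ := Submodule.eq_top_of_finrank_eq (by rw [hk, finrank_V8])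
    refine hbad (sq_of_scalar ht hs (neg_ne_zero.2 one_ne_zero) fun x => ?_)
    rw [neg_one_smul]
    exact mem_Vm.1 (h3 ▸ Submodule.mem_top)
  have h4 : Module.finrank F (Vm h) ≠ 4 := by
    intro hk
    obtain ⟨u, hu0, huo, hu⟩ := key 4 hk
    refine hbad (sq_of_four ht hs (hu0 0) (hu0 1) (hu0 2) (hu0 3) (huo 0 1 (by decide)) (huo 0 2 (by decide))
      (huo 0 3 (by decide)) (huo 1 2 (by decide)) (huo 1 3 (by decide)) (huo 2 3 (by decide)) fun x => ?_)
    rw [hu, Fin.sum_univ_four]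
    simp only [refl_apply, polar_sub_right, polar_smul_right, huo 0 1 (by decide), huo 0 2 (by decide),
      huo 0 3 (by decide), huo 1 2 (by decide), huo 1 3 (by decide), huo 2 3 (by decide), smul_eq_mul, mul_zero, sub_zero]
    module
  obtain ⟨r, hr⟩ := hev
  omega

/-- **the elements with `g² = -1` are images of `t₂`, `t₆` under triality** -/
theorem exists_tri (h2 : (2 : F) ≠ 0) (hG : Good (plusForm 4 F)) {ρ : MulAut (P (plusForm 4 F))} (hρ : IsRho ρ)
    (g : ↥(E (plusForm 4 F))) (hg : ∀ v, (g : V8 F ≃ₗ[F] V8 F) ((g : V8 F ≃ₗ[F] V8 F) v) = -v) :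
    ∃ h : ↥(E (plusForm 4 F)), (ρ (g : P (plusForm 4 F)) = (h : P (plusForm 4 F)) ∨
      ρ (ρ (g : P (plusForm 4 F))) = (h : P (plusForm 4 F))) ∧ h * h = 1 ∧
      (Module.finrank F (Vm (h : V8 F ≃ₗ[F] V8 F)) = 2 ∨ Module.finrank F (Vm (h : V8 F ≃ₗ[F] V8 F)) = 6) := by
  obtain ⟨g₁, g₂, ht⟩ := exists_triple hG g.2
  -- the squares
  have hsq := ht.2.mul ht.2
  have hneg : Tri ((g : V8 F ≃ₗ[F] V8 F) * (g : V8 F ≃ₗ[F] V8 F)) 1 (LinearEquiv.neg F) := by
    intro x y
    change (g : V8 F ≃ₗ[F] V8 F) ((g : V8 F ≃ₗ[F] V8 F) (omul x y)) = omul x (-y)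
    rw [hg, omul_neg']
  obtain ⟨c, hc0, hc1, hc2⟩ := hneg.unique hsq
  have hc1' : ∀ x, g₁ (g₁ x) = c • x := hc1
  have hc2' : ∀ x, g₂ (g₂ x) = c⁻¹ • -x := hc2
  have hcc : c * c = 1 := by
    have h3 : plusForm 4 F (g₁ (g₁ (one8 F))) = 1 := by
      rw [E_le_O ht.1.2.1, E_le_O ht.1.2.1, norm_one8]
    rw [hc1', QuadraticMap.map_smul, norm_one8, smul_eq_mul, mul_one] at h3
    exact h3
  have hkk : ∀ (k : V8 F ≃ₗ[F] V8 F) (x : V8 F), (kap F * k * kap F) ((kap F * k * kap F) x) =
      oconj (k (k (oconj x))) := by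
    intro k x
    change oconj (k (oconj (oconj (k (oconj x))))) = _
    rw [oconj_oconj]
  have hon : ∀ x : V8 F, oconj (-x) = -oconj x := fun x => by coord8
  rcases mul_self_eq_one_iff.1 hcc with h | h
  · -- `g₁² = 1`
    subst h
    have h3 : ∀ v, (kap F * g₁ * kap F) ((kap F * g₁ * kap F) v) = v := fun v => by
      rw [hkk, hc1', one_smul, oconj_oconj]
    refine ⟨⟨kap F * g₁ * kap F, kap_conj_mem ht.1.2.1⟩, Or.inl (hρ g _ g₁ g₂ ht rfl), ?_, ?_⟩
    · exact Subtype.ext (LinearEquiv.ext h3)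
    · refine two_or_six h2 hG (kap_conj_mem ht.1.2.1) (ht.2.rot (E_le_O ht.1.1) (E_le_O ht.1.2.1)) (E_le_O ht.1.2.2) h3
        fun v => ?_
      rw [hc2', inv_one, one_smul]
  · -- `g₂² = 1`
    subst h
    have h3 : ∀ v, (kap F * g₂ * kap F) ((kap F * g₂ * kap F) v) = v := fun v => by
      rw [hkk, hc2', inv_neg, inv_one, neg_smul, one_smul, neg_neg, oconj_oconj]
    refine ⟨⟨kap F * g₂ * kap F, kap_conj_mem ht.1.2.2⟩, Or.inr (hρ.sq ht rfl), ?_, ?_⟩
    · exact Subtype.ext (LinearEquiv.ext h3)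
    · refine two_or_six h2 hG (kap_conj_mem ht.1.2.2)
        ((ht.2.rot (E_le_O ht.1.1) (E_le_O ht.1.2.1)).rot (E_le_O (kap_conj_mem ht.1.2.1)) (E_le_O ht.1.2.2))
        (E_le_O (kap_conj_mem ht.1.1)) h3 fun v => ?_
      rw [hkk, hg, hon, oconj_oconj]

end Cfsg.Agent.H601.OTri
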